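import Mathlib
import Cfsg.Agent.FrakL.Cases

/-!
An irreducible module for `SL₂(q)` in the defining characteristic whose Sylow subgroup acts
quadratically, or fixes a subgroup of order at least `|V|^(1/2)`, is the natural module.
-/

set_option autoImplicit false

namespace CfsgLib.FrakL

open Matrix

variable {F : Type*} [Field F] {V : Type*} [AddCommGroup V]
variable (ρ : SpecialLinearGroup (Fin 2) F →* AddMonoid.End V)

/-- The fixed subgroup of the upper unitriangular matrices. -/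
def upperFixed : AddSubgroup V where
  carrier := {v | ∀ t, ρ (upperU t) v = v}
  zero_mem' := fun t => map_zero _
  add_mem' := fun {a b} ha hb t => by rw [map_add, ha t, hb t]
  neg_mem' := fun {a} ha t => by rw [map_neg, ha t]

/-- The elements of the fixed subgroup whose image under the Weyl element is fixed modulo it. -/
def secondFixed : AddSubgroup V where
  carrier := {u | u ∈ upperFixed ρ ∧ ∀ t, ρ (upperU t) (ρ weyl u) - ρ weyl u ∈ upperFixed ρ}
  zero_mem' := ⟨zero_mem _, fun t => by simp⟩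
  add_mem' := fun {a b} ha hb => ⟨add_mem ha.1 hb.1, fun t => by
    rw [map_add, map_add, add_sub_add_comm]; exact add_mem (ha.2 t) (hb.2 t)⟩
  neg_mem' := fun {a} ha => ⟨neg_mem ha.1, fun t => by
    rw [map_neg, map_neg, ← neg_sub', neg_mem_iff]; exact ha.2 t⟩

variable {ρ}

theorem mem_upperFixed {v : V} : v ∈ upperFixed ρ ↔ ∀ t, ρ (upperU t) v = v := Iff.rfl

theorem negId_mem {u : V} (hu : u ∈ upperFixed ρ) : ρ negId u ∈ upperFixed ρ := fun t => by
  rw [← rho_mul, upperU_mul_negId, rho_mul, hu t]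

theorem torus_mem (a : Fˣ) {u : V} (hu : u ∈ upperFixed ρ) : ρ (torus a) u ∈ upperFixed ρ :=
  fun t => by rw [← rho_mul, upperU_mul_torus, rho_mul, hu]

theorem torus_weyl (a : Fˣ) :
    (torus a : SpecialLinearGroup (Fin 2) F) * weyl = weyl * torus a⁻¹ := by
  apply sl_ext <;> simp [torus_coe, weyl_coe]

theorem negId_eq_torus : (negId : SpecialLinearGroup (Fin 2) F) = torus (-1) := by
  apply sl_ext <;> simp [torus_coe, negId_coe]

theorem secondFixed_torus (a : Fˣ) {u : V} (hu : u ∈ secondFixed ρ) :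
    ρ (torus a) u ∈ secondFixed ρ := by
  refine ⟨torus_mem a hu.1, fun t => ?_⟩
  have e : ρ weyl (ρ (torus a) u) = ρ (torus a⁻¹) (ρ weyl u) := by
    rw [← rho_mul, ← rho_mul, torus_weyl, inv_inv]
  rw [e, ← rho_mul, upperU_mul_torus, rho_mul, ← map_sub]
  exact torus_mem _ (hu.2 _)

/-- An additive subgroup stable under the upper unitriangular matrices and the Weyl element is
stable under the whole group. -/
theorem invariant_of_generators (W : AddSubgroup V) (hX : ∀ t, ∀ v ∈ W, ρ (upperU t) v ∈ W)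
    (hw : ∀ v ∈ W, ρ weyl v ∈ W) : ∀ g, ∀ v ∈ W, ρ g v ∈ W := by
  have hY : ∀ s, ∀ v ∈ W, ρ (lowerU s) v ∈ W := by
    intro s v hv
    have e : lowerU s = weyl * upperU (-s) * weyl * negId := by
      rw [← lowerU_mul_weyl, mul_assoc (lowerU s), mul_assoc, weyl_mul_weyl, negId_mul_self,
        mul_one]
    rw [e, rho_mul, rho_mul, rho_mul, ← weyl_mul_weyl, rho_mul]
    exact hw _ (hX _ _ (hw _ (hw _ (hw _ hv))))
  intro g v hv
  obtain ⟨a, b, c, d, rfl⟩ := exists_factor g
  rw [rho_mul, rho_mul, rho_mul]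
  exact hX _ _ (hY _ _ (hX _ _ (hY _ _ hv)))

/-- The subgroup `S + wS`. -/
def plusWeyl (ρ : SpecialLinearGroup (Fin 2) F →* AddMonoid.End V) (S : AddSubgroup V) :
    AddSubgroup V :=
  S ⊔ S.map (ρ weyl)

theorem mem_plusWeyl {S : AddSubgroup V} {v : V} :
    v ∈ plusWeyl ρ S ↔ ∃ u ∈ S, ∃ u' ∈ S, v = u + ρ weyl u' := by
  rw [plusWeyl, AddSubgroup.mem_sup]
  constructor
  · rintro ⟨u, hu, _, ⟨u', hu', rfl⟩, rfl⟩
    exact ⟨u, hu, u', hu', rfl⟩
  · rintro ⟨u, hu, u', hu', rfl⟩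
    exact ⟨u, hu, _, ⟨u', hu', rfl⟩, rfl⟩

theorem plusWeyl_weyl {S : AddSubgroup V} (hS : ∀ u ∈ S, ρ negId u ∈ S) :
    ∀ v ∈ plusWeyl ρ S, ρ weyl v ∈ plusWeyl ρ S := by
  intro v hv
  obtain ⟨u, hu, u', hu', rfl⟩ := mem_plusWeyl.1 hv
  refine mem_plusWeyl.2 ⟨_, hS u' hu', u, hu, ?_⟩
  rw [map_add, ← rho_mul, weyl_mul_weyl]
  abel

section Irreducible

variable (hirr : ∀ W : AddSubgroup V, (∀ g, ∀ v ∈ W, ρ g v ∈ W) → W = ⊥ ∨ W = ⊤)
  (hnt : ∃ g v, ρ g v ≠ v)
include hirr hnt

theorem upperFixed_disj {u : V} (hu : u ∈ upperFixed ρ) (hwu : ρ weyl u ∈ upperFixed ρ) :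
    u = 0 := by
  let W : AddSubgroup V :=
    { carrier := {v | ∀ g, ρ g v = v}
      zero_mem' := fun g => map_zero _
      add_mem' := fun {a b} ha hb g => by rw [map_add, ha g, hb g]
      neg_mem' := fun {a} ha g => by rw [map_neg, ha g] }
  have hW : W = ⊥ := by
    rcases hirr W (fun g v hv h => by rw [hv g]; exact hv h) with h | h
    · exact h
    · obtain ⟨g, v, hgv⟩ := hnt
      exact absurd ((h ▸ AddSubgroup.mem_top v : v ∈ W) g) hgv
  have hY : ∀ s, ρ (lowerU s) u = u := by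
    intro s
    have hz : ρ weyl (ρ negId u) ∈ upperFixed ρ := by
      have e : (weyl : SpecialLinearGroup (Fin 2) F) * negId = negId * weyl := by
        rw [← weyl_mul_weyl, mul_assoc]
      rw [← rho_mul, e, rho_mul]
      exact negId_mem hwu
    have e : u = ρ weyl (ρ weyl (ρ negId u)) := by
      rw [← rho_mul weyl, weyl_mul_weyl, ← rho_mul, negId_mul_self, rho_one]
    conv_lhs => rw [e, ← rho_mul, lowerU_mul_weyl, rho_mul, hz, ← e]
  have : u ∈ W := fun g => by
    obtain ⟨a, b, c, d, rfl⟩ := exists_factor g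
    rw [rho_mul, rho_mul, rho_mul, hY, hu, hY, hu]
  rw [hW] at this
  exact (AddSubgroup.mem_bot).1 this

theorem plusWeyl_unique {u u' v v' : V} (hu : u ∈ upperFixed ρ) (hu' : u' ∈ upperFixed ρ)
    (hv : v ∈ upperFixed ρ) (hv' : v' ∈ upperFixed ρ) (h : u + ρ weyl u' = v + ρ weyl v') :
    u = v ∧ u' = v' := by
  have h1 : ρ weyl (u' - v') = v - u := by
    rw [map_sub, sub_eq_sub_iff_add_eq_add, add_comm (ρ weyl u'), h, add_comm v]
  have h2 := upperFixed_disj hirr hnt (sub_mem hu' hv') (h1 ▸ sub_mem hv hu)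
  rw [h2, map_zero, eq_comm, sub_eq_zero] at h1
  exact ⟨h1.symm, sub_eq_zero.1 h2⟩

theorem quadratic_of_quad (hquad : ∀ t v, ρ (upperU t) v - v ∈ upperFixed ρ)
    (hne : upperFixed ρ ≠ ⊥) : Quadratic ρ (upperFixed ρ) := by
  set W := plusWeyl ρ (upperFixed ρ) with hW
  have htop : W = ⊤ := by
    refine (hirr W (invariant_of_generators W (fun t v hv => ?_)
      (plusWeyl_weyl fun u hu => negId_mem hu))).resolve_left (fun h => hne ?_)
    · obtain ⟨u, hu, u', hu', rfl⟩ := mem_plusWeyl.1 hv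
      refine mem_plusWeyl.2 ⟨u + (ρ (upperU t) (ρ weyl u') - ρ weyl u'),
        add_mem hu (hquad t _), u', hu', ?_⟩
      rw [map_add, hu t]; abel
    · rw [eq_bot_iff, ← h, hW, plusWeyl]; exact le_sup_left
  exact ⟨fun t u hu => hu t, hquad, fun v => mem_plusWeyl.1 (show v ∈ W by rw [htop]; trivial),
    fun u hu hwu => upperFixed_disj hirr hnt hu hwu⟩

theorem quadratic_of_card [Finite V] [Finite F] {p : ℕ} [Fact p.Prime] (hV : IsPGroup p (Multiplicative V))
    (hF : IsPGroup p (Multiplicative F))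
    (hcard : Nat.card V ≤ Nat.card (upperFixed ρ) ^ 2) (hne : upperFixed ρ ≠ ⊥) :
    Quadratic ρ (upperFixed ρ) := by
  set U := upperFixed ρ with hU
  have hdec : ∀ v, ∃ u ∈ U, ∃ u' ∈ U, v = u + ρ weyl u' := by
    let φ : U × U → V := fun x => x.1 + ρ weyl x.2
    have hφ : Function.Injective φ := fun x y h => by
      obtain ⟨h1, h2⟩ := plusWeyl_unique hirr hnt x.1.2 x.2.2 y.1.2 y.2.2 h
      exact Prod.ext (Subtype.ext h1) (Subtype.ext h2)
    have hc : Nat.card V ≤ Nat.card (U × U) := by rwa [Nat.card_prod, ← pow_two]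
    intro v
    obtain ⟨x, hx⟩ := (hφ.bijective_of_nat_card_le hc).2 v
    exact ⟨x.1, x.1.2, x.2, x.2.2, hx.symm⟩
  have hz : ∀ u ∈ secondFixed ρ, ρ negId u ∈ secondFixed ρ := fun u hu =>
    negId_eq_torus (F := F) ▸ secondFixed_torus (-1) hu
  have hmove : ∀ u ∈ secondFixed ρ, ∀ t, ρ (upperU t) (ρ weyl u) - ρ weyl u ∈ secondFixed ρ := by
    intro u₁ hu₁ r
    rcases eq_or_ne r 0 with rfl | hr
    · rw [upperU_zero, rho_one, sub_self]; exact zero_mem _
    set u := ρ negId u₁ with hu_def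
    have hu : u ∈ secondFixed ρ := hz u₁ hu₁
    set y := ρ (upperU r) (ρ weyl u₁) - ρ weyl u₁ with hy_def
    have hy : y ∈ U := hu₁.2 r
    have hu1 : u₁ = ρ negId u := by rw [hu_def, ← rho_mul, negId_mul_self, rho_one]
    have huw : u = ρ weyl (ρ weyl u₁) := by rw [← rho_mul, weyl_mul_weyl]
    have hY : ρ (lowerU (-r)) u = u + ρ weyl y := by
      conv_lhs => rw [huw, ← rho_mul, lowerU_mul_weyl, rho_mul, neg_neg]
      rw [hy_def, map_sub, ← huw]; abel
    set t : Fˣ := (Units.mk0 r hr)⁻¹ with ht_def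
    have ht : ((t⁻¹ : Fˣ) : F) = r := by rw [ht_def, inv_inv]; rfl
    set u'' := ρ (torus t⁻¹) u with hu''_def
    have hu'' : u'' ∈ secondFixed ρ := secondFixed_torus _ hu
    have h1 : ρ weyl u'' = u + ρ (upperU (t : F)) (ρ weyl y) := by
      rw [hu''_def, ← rho_mul, ← torus_weyl, torus_mul_weyl, rho_mul, rho_mul, hu.1, ht, hY,
        map_add, hu.1]
    have h2 := congrArg (ρ (upperU (-(t : F)))) h1
    rw [map_add, hu.1, ← rho_mul (upperU (-(t : F))) (upperU (t : F)), ← upperU_add, neg_add_cancel,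
      upperU_zero, rho_one] at h2
    have h3 : (ρ (upperU (-(t : F))) (ρ weyl u'') - ρ weyl u'') + ρ weyl u'' = u + ρ weyl y := by
      rw [sub_add_cancel, h2]
    exact (plusWeyl_unique hirr hnt (hu''.2 _) hu''.1 hu.1 hy h3).2 ▸ hu''
  have hne2 : secondFixed ρ ≠ ⊥ := by
    letI : MulAction (Multiplicative F) (V ⧸ U) :=
      { smul := fun t q => QuotientAddGroup.map U U (ρ (upperU (Multiplicative.toAdd t)))
          (fun u hu => by
            show ρ (upperU (Multiplicative.toAdd t)) u ∈ U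
            rw [hu]; exact hu) q
        one_smul := fun q => by
          obtain ⟨v, rfl⟩ := QuotientAddGroup.mk_surjective q
          show ((ρ (upperU (0 : F)) v : V) : V ⧸ U) = v
          rw [upperU_zero, rho_one]
        mul_smul := fun s t q => by
          obtain ⟨v, rfl⟩ := QuotientAddGroup.mk_surjective q
          show ((ρ (upperU (Multiplicative.toAdd s + Multiplicative.toAdd t)) v : V) : V ⧸ U) =
            ((ρ (upperU (Multiplicative.toAdd s)) (ρ (upperU (Multiplicative.toAdd t)) v) : V) : V ⧸ U)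
          rw [upperU_add, rho_mul] }
    have hUtop : U ≠ ⊤ := by
      intro h
      apply hne
      rw [eq_bot_iff]
      intro u hu
      rw [AddSubgroup.mem_bot]
      exact upperFixed_disj hirr hnt hu (show ρ weyl u ∈ U by rw [h]; trivial)
    obtain ⟨k, hk⟩ := IsPGroup.iff_card.1 hV
    have hk' : Nat.card V = p ^ k := hk
    have hdvd : p ∣ Nat.card (V ⧸ U) := by
      have h1 : U.index ∣ p ^ k := hk' ▸ U.index_dvd_card
      obtain ⟨i, -, hi⟩ := (Nat.dvd_prime_pow Fact.out).1 h1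
      change p ∣ U.index
      rcases Nat.eq_zero_or_pos i with rfl | hi0
      · exact absurd (AddSubgroup.index_eq_one.1 (by simpa using hi)) hUtop
      · rw [hi]; exact dvd_pow_self p hi0.ne'
    obtain ⟨q, hq, hq0⟩ := hF.exists_fixed_point_of_prime_dvd_card_of_fixed_point _ hdvd
      (a := (0 : V ⧸ U)) (fun t => map_zero _)
    obtain ⟨v, rfl⟩ := QuotientAddGroup.mk_surjective q
    obtain ⟨u, hu, u', hu', rfl⟩ := hdec v
    intro hbot
    have hmem : u' ∈ secondFixed ρ := by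
      refine ⟨hu', fun t => ?_⟩
      have h := (QuotientAddGroup.eq_iff_sub_mem).1 (hq (Multiplicative.ofAdd t))
      have h' : ρ (upperU t) (u + ρ weyl u') - (u + ρ weyl u') ∈ U := h
      rw [map_add, hu t, add_sub_add_left_eq_sub] at h'
      exact h'
    rw [hbot, AddSubgroup.mem_bot] at hmem
    apply hq0
    rw [eq_comm, QuotientAddGroup.eq_zero_iff, hmem, map_zero, add_zero]
    exact hu
  have htop : plusWeyl ρ (secondFixed ρ) = ⊤ := by
    refine (hirr _ (invariant_of_generators _ (fun t v hv => ?_) (plusWeyl_weyl hz))).resolve_left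
      (fun h => hne2 ?_)
    · obtain ⟨u, hu, u', hu', rfl⟩ := mem_plusWeyl.1 hv
      refine mem_plusWeyl.2 ⟨u + (ρ (upperU t) (ρ weyl u') - ρ weyl u'),
        add_mem hu (hmove u' hu' t), u', hu', ?_⟩
      rw [map_add, hu.1 t]; abel
    · rw [eq_bot_iff, ← h, plusWeyl]; exact le_sup_left
  have hquad : ∀ t v, ρ (upperU t) v - v ∈ U := by
    intro t v
    obtain ⟨u, hu, u', hu', rfl⟩ := mem_plusWeyl.1 (htop ▸ AddSubgroup.mem_top v)
    rw [map_add, hu.1 t, add_sub_add_left_eq_sub]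
    exact hu'.2 t
  exact quadratic_of_quad hirr hnt hquad hne

omit hnt in
/-- An irreducible quadratic module is the natural one. -/
theorem exists_natural_equiv {U : AddSubgroup V} (h : Quadratic ρ U) (hne : U ≠ ⊥) :
    ∃ Ψ : (Fin 2 → F) ≃+ V,
      ∀ (g : SpecialLinearGroup (Fin 2) F) x,
        ρ g (Ψ x) = Ψ ((g : Matrix (Fin 2) (Fin 2) F) *ᵥ x) := by
  obtain ⟨u₀, hu₀, hu0⟩ : ∃ u ∈ U, u ≠ 0 := by
    by_contra hc
    push Not at hc
    exact hne ((eq_bot_iff).2 fun u hu => (AddSubgroup.mem_bot).2 (hc u hu))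
  let Ψ₀ : (Fin 2 → F) →+ V := AddMonoidHom.mk'
    (fun x => scal ρ (x 0) u₀ - ρ weyl (scal ρ (x 1) u₀))
    (fun x y => by simp only [Pi.add_apply, scal_add h, map_add]; abel)
  have hact : ∀ (g : SpecialLinearGroup (Fin 2) F) x,
      ρ g (Ψ₀ x) = Ψ₀ ((g : Matrix (Fin 2) (Fin 2) F) *ᵥ x) := by
    intro g x
    simp only [Ψ₀, AddMonoidHom.mk'_apply]
    rw [actsBy h g _ (scal_mem h _ _) _ (scal_mem h _ _)]
    simp only [Matrix.mulVec, dotProduct, Fin.sum_univ_two, scal_add h, scal_mul h _ _ hu₀]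
  have hinj : Function.Injective Ψ₀ := by
    rw [injective_iff_map_eq_zero]
    intro x hx
    simp only [Ψ₀, AddMonoidHom.mk'_apply, sub_eq_zero] at hx
    have h1 : scal ρ (x 1) u₀ = 0 := h.disj _ (scal_mem h _ _) (hx ▸ scal_mem h _ _)
    rw [h1, map_zero] at hx
    have kill : ∀ z : F, scal ρ z u₀ = 0 → z = 0 := fun z e => by
      by_contra hz
      apply hu0
      rw [← scal_one h hu₀, ← inv_mul_cancel₀ hz, scal_mul h _ _ hu₀, e, scal_map_zero]
    funext i; fin_cases i
    · exact kill _ hx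
    · exact kill _ h1
  have hsurj : Function.Surjective Ψ₀ := by
    rw [← AddMonoidHom.range_eq_top]
    refine (hirr _ fun g v hv => ?_).resolve_left fun hbot => hu0 ?_
    · obtain ⟨x, rfl⟩ := hv
      exact ⟨_, (hact g x).symm⟩
    · have : Ψ₀ ![1, 0] ∈ Ψ₀.range := ⟨_, rfl⟩
      rw [hbot, AddSubgroup.mem_bot] at this
      simpa [Ψ₀, scal_one h hu₀, scal_zero] using this
  exact ⟨AddEquiv.ofBijective Ψ₀ ⟨hinj, hsurj⟩, hact⟩

end Irreducible

end CfsgLib.FrakL
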